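import Cfsg.Agent.H321.Ker.AlgY
import Cfsg.Agent.H918.UBase

/-!
# S2187, kernel row: orbits of type `A_{p-1}` in a group `Y`

* `fix_gen` : the fixed points of `stm` in `SL_n(k)` are generated by those of order `r`;
* `exists_plane` : `B ≤ E` of index `p ^ 2`, `f ∈ E \ B` : `B ⊔ ⟨f⟩` is a hyperplane;
* `orb_hom_of` : `E ≤ Y^σ` elementary abelian, `B ≤ E` of index `p ^ 2` centralises `ψ (SL_p(k))`, `ya`, `yb ∈ E` act as a
  non-commuting pair: all `r`-elements `ψ g ∈ Y^σ` lie in `ι M₀`, if `M₀ ≤ K₀` contains all `a ∈ K₀` such that `ι a` commutes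
  with a hyperplane of `E`;
* `orb_cyclic_of` : the form with transvections (orbits of `p` roots spanning a system of type `A_{p-1}`).
-/

set_option autoImplicit false
set_option linter.unusedSectionVars false

universe u

namespace Cfsg.Agent.H321.Ker

open Cfsg Cfsg.Geo
open scoped MatrixGroups Matrix commutatorElement
open Matrix.SpecialLinearGroup (toGL transvection)
open Cfsg.Agent.H918 (SUg)

section Fix

variable {n : ℕ} [NeZero n] {k : Type*} [Field k] [IsAlgClosed k] {r e : ℕ} [Fact r.Prime] [CharP k r]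

theorem stG_false_conj {D x : GL (Fin n) k} (hx : D = x * (fr r e x)⁻¹) (y : GL (Fin n) k) :
    stG r e D false (x * y * x⁻¹) = x * fr r e y * x⁻¹ := by
  rw [stG_false, map_mul, map_mul, map_inv, hx]
  group

theorem stG_true_conj {D x : GL (Fin n) k} (hx : D = x * (it (fr r e x))⁻¹) (y : GL (Fin n) k) :
    stG r e D true (x * y * x⁻¹) = x * it (fr r e y) * x⁻¹ := by
  rw [stG_true, map_mul, map_mul, map_mul, map_mul, map_inv, map_inv, hx]
  group

/-- `1 + N`, `N ^ 2 = 0`, has order `r` in characteristic `r` -/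
theorem pow_char_eq_one {F : Type*} [Field F] [CharP F r] {g : GL (Fin n) F} {N : Matrix (Fin n) (Fin n) F}
    (hg : (g : Matrix (Fin n) (Fin n) F) = 1 + N) (hN : N * N = 0) : g ^ r = 1 := by
  have : CharP (Matrix (Fin n) (Fin n) F) r := inferInstance
  apply Units.ext
  rw [Units.val_pow_eq_pow_val, hg, add_pow_char_of_commute _ (Commute.one_left N), one_pow, Units.val_one]
  have h2 := (Fact.out : r.Prime).two_le
  obtain ⟨m, rfl⟩ : ∃ m, r = 2 + m := ⟨r - 2, by omega⟩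
  rw [pow_add, pow_two, hN, zero_mul, add_zero]

theorem charP_subfield {F₀ : Subfield k} : CharP F₀ r := by
  refine ⟨fun x => ?_⟩
  rw [← CharP.cast_eq_zero_iff k r x]
  constructor
  · intro h
    have := congrArg (fun z : F₀ => (z : k)) h
    simpa using this
  · intro h
    apply Subtype.ext
    simpa using h

/-- **The fixed points of `stm` are generated by elements of order `r`.** -/
theorem fix_gen (hn : 3 ≤ n) (he : 0 < e) (h32 : ¬ (n = 3 ∧ r ^ e = 2)) {D : GL (Fin n) k} {uni : Bool}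
    {g : Matrix.SpecialLinearGroup (Fin n) k} (hg : stm r e D uni g = g) :
    g ∈ Subgroup.closure {h : Matrix.SpecialLinearGroup (Fin n) k | stm r e D uni h = h ∧ h ^ r = 1} := by
  have : Nontrivial (Fin n) := Fin.nontrivial_iff_two_le.2 (by omega)
  set P := Subgroup.closure {h : Matrix.SpecialLinearGroup (Fin n) k | stm r e D uni h = h ∧ h ^ r = 1} with hP
  have hmem : ∀ {F₀ : Subfield k} {x : GL (Fin n) k} {t : GL (Fin n) F₀} (_ : t ∈ specialLinear (Fin n) F₀)
      (_ : t ^ r = 1) (_ : stG r e D uni (x * ex n F₀ t * x⁻¹) = x * ex n F₀ t * x⁻¹),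
      x * ex n F₀ t * x⁻¹ ∈ P.map toGL := by
    intro F₀ x t ht htr hfix
    set t' : Matrix.SpecialLinearGroup (Fin n) k := ⟨(x * ex n F₀ t * x⁻¹).1, mem_SL_iff.1 (conj_mem_SL x (ex_SL ht))⟩
      with ht'
    have h1 : toGL t' = x * ex n F₀ t * x⁻¹ := Units.ext rfl
    refine ⟨t', Subgroup.subset_closure ⟨toGL_inj' (by rw [toGL_stm, h1, hfix]), toGL_inj' ?_⟩, h1⟩
    rw [map_pow, h1, conj_pow, ← map_pow, htr, map_one, map_one]
    group
  have hsl : ∀ {F₀ : Subfield k} {x : GL (Fin n) k} {g₀ : GL (Fin n) F₀},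
      ex n F₀ g₀ = x⁻¹ * toGL g * x → g₀ ∈ specialLinear (Fin n) F₀ := by
    intro F₀ x g₀ hg₀
    have h3 : ex n F₀ g₀ ∈ specialLinear (Fin n) k := by
      rw [hg₀]
      have := conj_mem_SL x⁻¹ (toGL_mem g)
      rwa [inv_inv] at this
    rw [mem_SL_iff] at h3 ⊢
    have h4 : (ex n F₀ g₀ : Matrix (Fin n) (Fin n) k) =
      (F₀.subtype : F₀ →+* k).mapMatrix (g₀ : Matrix (Fin n) (Fin n) F₀) := rfl
    rw [h4, ← RingHom.map_det] at h3
    exact Subtype.ext h3
  have hfin : ∀ {F₀ : Subfield k} {x : GL (Fin n) k} {g₀ : GL (Fin n) F₀}, ex n F₀ g₀ = x⁻¹ * toGL g * x →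
      x * ex n F₀ g₀ * x⁻¹ ∈ P.map toGL → g ∈ P := by
    intro F₀ x g₀ hg₀ h
    rw [hg₀] at h
    have h1 : x * (x⁻¹ * toGL g * x) * x⁻¹ = toGL g := by group
    rw [h1] at h
    obtain ⟨g', hg', h2⟩ := h
    rwa [toGL_inj' h2] at hg'
  have hgG : stG r e D uni (toGL g) = toGL g := by rw [← toGL_stm, hg]
  cases uni with
  | false =>
    obtain ⟨x, hx⟩ := lang_fr (r := r) he D
    have h1 : fr r e (x⁻¹ * toGL g * x) = x⁻¹ * toGL g * x := by
      have h2 := stG_false_conj hx (x⁻¹ * toGL g * x)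
      have h3 : x * (x⁻¹ * toGL g * x) * x⁻¹ = toGL g := by group
      rw [h3, hgG] at h2
      calc fr r e (x⁻¹ * toGL g * x) = x⁻¹ * (x * fr r e (x⁻¹ * toGL g * x) * x⁻¹) * x := by group
        _ = _ := by rw [← h2]
    obtain ⟨g₀, hg₀⟩ := exists_ex h1
    refine hfin hg₀ ?_
    -- transvections
    have h2 : ∀ A : Matrix.SpecialLinearGroup (Fin n) (Fk r e : Subfield k),
        x * ex n (Fk r e) (toGL A) * x⁻¹ ∈ P.map toGL := by
      intro A
      refine Cfsg.Agent.LieClassical.SLGen.transvection_induction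
        (fun A => x * ex n (Fk r e) (toGL A) * x⁻¹ ∈ P.map toGL) (fun i j hij c => ?_) (fun A B hA hB => ?_) A
      · have : CharP (Fk r e : Subfield k) r := charP_subfield
        refine hmem (toGL_mem _) (pow_char_eq_one (N := Matrix.single i j c) (coe_transvection hij c) ?_) ?_
        · rw [Matrix.single_mul_single_of_ne]
          exact hij.symm
        · rw [stG_false_conj hx, fr_ex]
      · have : x * ex n (Fk r e) (toGL (A * B)) * x⁻¹ =
            (x * ex n (Fk r e) (toGL A) * x⁻¹) * (x * ex n (Fk r e) (toGL B) * x⁻¹) := by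
          rw [map_mul, map_mul]; group
        rw [this]
        exact mul_mem hA hB
    have h3 := h2 ⟨g₀.1, mem_SL_iff.1 (hsl hg₀)⟩
    have h4 : toGL (⟨g₀.1, mem_SL_iff.1 (hsl hg₀)⟩ : Matrix.SpecialLinearGroup (Fin n) (Fk r e : Subfield k)) = g₀ :=
      Units.ext rfl
    rwa [h4] at h3
  | true =>
    obtain ⟨x, hx⟩ := lang_it (r := r) he D
    have he2 : 0 < e + e := by omega
    have h1 : it (fr r e (x⁻¹ * toGL g * x)) = x⁻¹ * toGL g * x := by
      have h2 := stG_true_conj hx (x⁻¹ * toGL g * x)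
      have h3 : x * (x⁻¹ * toGL g * x) * x⁻¹ = toGL g := by group
      rw [h3, hgG] at h2
      calc it (fr r e (x⁻¹ * toGL g * x)) = x⁻¹ * (x * it (fr r e (x⁻¹ * toGL g * x)) * x⁻¹) * x := by group
        _ = _ := by rw [← h2]
    have hctct : fr r (e + e) (x⁻¹ * toGL g * x) = x⁻¹ * toGL g * x := by
      rw [← fr_fr]
      have h3 : ∀ y : GL (Fin n) k, it (fr r e (it (fr r e y))) = fr r e (fr r e y) := fun y => by
        rw [← it_fr, it_it]
      rw [← h3, h1, h1]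
    obtain ⟨g₀, hg₀⟩ := exists_ex hctct
    refine hfin hg₀ ?_
    have := finite_Fk (k := k) (r := r) he2
    let _ : Fintype (Fk r (e + e) : Subfield k) := Fintype.ofFinite _
    have hcard : Fintype.card (Fk r (e + e) : Subfield k) = (r ^ e) ^ 2 := by
      rw [← Nat.card_eq_fintype_card, card_Fk_alg he2, ← pow_mul, mul_two]
    have hU : g₀ ∈ SUg n (Fk r (e + e) : Subfield k) (r ^ e) := ⟨mem_GU_of_it (by rw [hg₀, h1]), hsl hg₀⟩
    have h2 : SUg n (Fk r (e + e) : Subfield k) (r ^ e) ≤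
        (P.map toGL).comap ((MulAut.conj x).toMonoidHom.comp (ex n (Fk r (e + e)))) := by
      refine Cfsg.Agent.H918.SUg_le_of_tv hcard h32 fun v c hv hc => ?_
      have : CharP (Fk r (e + e) : Subfield k) r := charP_subfield
      have ht := Cfsg.Agent.H918.tv_mem hcard hv hc
      refine hmem ht.2 (pow_char_eq_one (N := c • Matrix.vecMulVec v (fun j => v j ^ r ^ e))
        (Cfsg.Agent.H918.coe_tv hcard hv hc) ?_) ?_
      · rw [Matrix.smul_mul, Matrix.mul_smul, Matrix.vecMulVec_mul_vecMulVec]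
        have h3 : (fun j => v j ^ r ^ e) ⬝ᵥ v = 0 := by
          rw [dotProduct_comm]
          exact hv
        rw [h3]
        simp
      · rw [stG_true_conj hx, it_of_mem_GU ht.1]
    exact h2 hU

end Fix

section Plane

variable {Y : Type*} [Group Y] {p : ℕ} [hp : Fact p.Prime]

/-- A subgroup of index `p ^ 2` and one more element generate a hyperplane. -/
theorem exists_plane {E B : Subgroup Y} (hEp : ∀ a ∈ E, a ^ p = 1) (hEc : ∀ a ∈ E, ∀ b ∈ E, a * b = b * a)
    (hB : B ≤ E) (hBi : B.relIndex E = p ^ 2) {f : Y} (hf : f ∈ E) (hfB : f ∉ B) :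
    ∃ F ≤ E, F.relIndex E = p ∧ B ≤ F ∧ f ∈ F ∧ ∀ x ∈ F, ∃ b ∈ B, ∃ m : ℤ, x = b * f ^ m := by
  have hp0 := hp.1.pos
  have hfo : orderOf f = p := orderOf_eq_prime (hEp f hf) (fun h => hfB (h ▸ B.one_mem))
  set F := B ⊔ Subgroup.zpowers f with hF
  have hFE : F ≤ E := sup_le hB (Subgroup.zpowers_le.2 hf)
  have hmem : ∀ x ∈ F, ∃ b ∈ B, ∃ m : ℤ, x = b * f ^ m := by
    intro x hx
    have h1 : F ≤ (⟨⟨⟨{x | ∃ b ∈ B, ∃ m : ℤ, x = b * f ^ m}, by
        rintro _ _ ⟨b, hb, m, rfl⟩ ⟨b', hb', m', rfl⟩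
        refine ⟨b * b', mul_mem hb hb', m + m', ?_⟩
        have h1 : Commute (f ^ m) b' := (show Commute f b' from hEc f hf b' (hB hb')).zpow_left m
        calc b * f ^ m * (b' * f ^ m') = b * (f ^ m * b') * f ^ m' := by group
          _ = _ := by rw [h1.eq]; group⟩, ⟨1, one_mem _, 0, by simp⟩⟩, by
        rintro _ ⟨b, hb, m, rfl⟩
        refine ⟨b⁻¹, inv_mem hb, -m, ?_⟩
        have h1 : Commute (f ^ (-m)) b⁻¹ := (show Commute f b⁻¹ from hEc f hf b⁻¹ (hB (inv_mem hb))).zpow_left (-m)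
        rw [mul_inv_rev, ← zpow_neg, h1.eq]⟩ : Subgroup Y) := by
      refine sup_le (fun b hb => ⟨b, hb, 0, by simp⟩) ?_
      rw [Subgroup.zpowers_le]
      exact ⟨1, one_mem _, 1, by simp⟩
    exact h1 hx
  have h1 : B.relIndex F = p := by
    -- `F = B × ⟨f⟩`
    have h2 : B.relIndex F = (B ⊓ Subgroup.zpowers f).relIndex (Subgroup.zpowers f) := by
      rw [Subgroup.inf_relIndex_right]
      have hn : (B.subgroupOf F).Normal := by
        refine ⟨fun a ha g => ?_⟩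
        have h3 : g * a * g⁻¹ = a := by
          apply Subtype.ext
          show (g : Y) * a * (g : Y)⁻¹ = a
          rw [hEc g (hFE g.2) a (hFE a.2), mul_inv_cancel_right]
        rwa [h3]
      -- the quotient map restricted to `⟨f⟩` is onto
      have h4 : (Subgroup.zpowers f).subgroupOf F ⊔ B.subgroupOf F = ⊤ := by
        rw [eq_top_iff]
        rintro ⟨x, hx⟩ -
        obtain ⟨b, hb, m, rfl⟩ := hmem x hx
        have hbF : b ∈ F := (le_sup_left : B ≤ F) hb
        have hfF : f ^ m ∈ F := (le_sup_right : Subgroup.zpowers f ≤ F) (zpow_mem (Subgroup.mem_zpowers f) m)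
        have h5 : (⟨b * f ^ m, hx⟩ : F) = ⟨b, hbF⟩ * ⟨f ^ m, hfF⟩ := rfl
        rw [h5]
        exact mul_mem ((le_sup_right : B.subgroupOf F ≤ _) hb)
          ((le_sup_left : (Subgroup.zpowers f).subgroupOf F ≤ _) (zpow_mem (Subgroup.mem_zpowers f) m))
      have h6 : (B.subgroupOf F).relIndex ((Subgroup.zpowers f).subgroupOf F) = (B.subgroupOf F).index := by
        rw [← Subgroup.relIndex_sup_right, h4, Subgroup.relIndex_top_right]
      rw [Subgroup.relIndex_subgroupOf (le_sup_right : Subgroup.zpowers f ≤ F)] at h6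
      exact h6.symm
    have h3 : B ⊓ Subgroup.zpowers f = ⊥ := by
      rw [eq_bot_iff]
      rintro x ⟨hxB, hxf⟩
      by_contra hx1
      have hx1' : x ≠ 1 := hx1
      have h4 : Subgroup.zpowers x = Subgroup.zpowers f := by
        have hle : Subgroup.zpowers x ≤ Subgroup.zpowers f := Subgroup.zpowers_le.2 hxf
        have hxo : orderOf x = p := orderOf_eq_prime (hEp x (hB hxB)) hx1'
        have : Finite (Subgroup.zpowers f) := Nat.finite_of_card_ne_zero (by
          rw [Nat.card_zpowers, hfo]; exact hp0.ne')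
        exact Subgroup.eq_of_le_of_card_ge hle (by rw [Nat.card_zpowers, Nat.card_zpowers, hxo, hfo])
      have h5 : f ∈ Subgroup.zpowers x := by rw [h4]; exact Subgroup.mem_zpowers f
      exact hfB ((Subgroup.zpowers_le.2 hxB) h5)
    rw [h2, h3, Subgroup.relIndex_bot_left, Nat.card_zpowers, hfo]
  refine ⟨F, hFE, ?_, le_sup_left, (le_sup_right : Subgroup.zpowers f ≤ F) (Subgroup.mem_zpowers f), hmem⟩
  have h2 := Subgroup.relIndex_mul_relIndex B F E le_sup_left hFE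
  rw [h1, hBi, pow_two] at h2
  exact Nat.eq_of_mul_eq_mul_left hp0 h2

end Plane

section Orb

variable {p : ℕ} [hp : Fact p.Prime] [NeZero p] {k : Type u} [Field k] [IsAlgClosed k] {r e : ℕ} [Fact r.Prime]
  [CharP k r] {Y : Type*} [Group Y] {K₀ : Type*} [Group K₀]

/-- `a b = ζ b a`, `ζ ≠ 1`, `a ^ i * b ^ j` scalar: `p ∣ i`, `p ∣ j`. -/
theorem dvd_of_scalar {a b : GL (Fin p) k} {ζ : kˣ} (hζ1 : ζ ≠ 1) (hζp : ζ ^ p = 1) (hab : a * b = sc p ζ * (b * a))
    {i j : ℕ} (h : a ^ i * b ^ j ∈ scalars (Fin p) k) : p ∣ i ∧ p ∣ j := by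
  have hord : orderOf ζ = p := orderOf_eq_prime hζp hζ1
  have hinj : ∀ z : kˣ, sc p z = 1 → z = 1 := by
    intro z hz
    have h3 : (sc p z : Matrix (Fin p) (Fin p) k) 0 0 = ((1 : GL (Fin p) k) : Matrix (Fin p) (Fin p) k) 0 0 := by rw [hz]
    rw [sc_coe, Units.val_one, Matrix.smul_apply, Matrix.one_apply_eq, smul_eq_mul, mul_one] at h3
    exact Units.ext h3
  obtain ⟨z, hz⟩ := mem_scalars_iff_sc.1 h
  have hcen : ∀ y : GL (Fin p) k, (a ^ i * b ^ j) * y = y * (a ^ i * b ^ j) := fun y => by rw [hz, sc_comm]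
  have h1 : ∀ m : ℕ, a * b ^ m = sc p (ζ ^ m) * (b ^ m * a) := by
    intro m
    induction m with
    | zero => simp [sc_one]
    | succ m ih =>
      calc a * b ^ (m + 1) = (a * b ^ m) * b := by rw [pow_succ]; group
        _ = sc p (ζ ^ m) * (b ^ m * (a * b)) := by rw [ih]; group
        _ = sc p (ζ ^ m) * ((b ^ m * sc p ζ) * (b * a)) := by rw [hab]; group
        _ = sc p (ζ ^ m) * sc p ζ * (b ^ (m + 1) * a) := by rw [← sc_comm ζ (b ^ m), pow_succ]; group
        _ = _ := by rw [← sc_mul, ← pow_succ]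
  have h2 : ∀ m : ℕ, a ^ m * b = sc p (ζ ^ m) * (b * a ^ m) := by
    intro m
    induction m with
    | zero => simp [sc_one]
    | succ m ih =>
      calc a ^ (m + 1) * b = a * (a ^ m * b) := by rw [pow_succ']; group
        _ = (a * sc p (ζ ^ m)) * (b * a ^ m) := by rw [ih]; group
        _ = sc p (ζ ^ m) * ((a * b) * a ^ m) := by rw [← sc_comm]; group
        _ = sc p (ζ ^ m) * sc p ζ * (b * a ^ (m + 1)) := by rw [hab, pow_succ']; group
        _ = _ := by rw [← sc_mul, ← pow_succ]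
  constructor
  · -- commute with `b`
    have h3 := hcen b
    have h4 : a ^ i * b ^ j * b = sc p (ζ ^ i) * (b * (a ^ i * b ^ j)) := by
      calc a ^ i * b ^ j * b = (a ^ i * b) * b ^ j := by
            rw [mul_assoc, ← pow_succ, pow_succ', mul_assoc]
        _ = _ := by rw [h2]; group
    rw [h3] at h4
    have h5 : sc p (ζ ^ i) = 1 := mul_eq_right.1 h4.symm
    rw [← hord]
    exact orderOf_dvd_of_pow_eq_one (hinj _ h5)
  · have h3 := hcen a
    have h4 : a * (a ^ i * b ^ j) = sc p (ζ ^ j) * (a ^ i * b ^ j * a) := by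
      calc a * (a ^ i * b ^ j) = a ^ i * (a * b ^ j) := by
            rw [← mul_assoc, ← pow_succ', pow_succ, mul_assoc]
        _ = (a ^ i * sc p (ζ ^ j)) * (b ^ j * a) := by rw [h1]; group
        _ = _ := by rw [← sc_comm]; group
    rw [← h3] at h4
    have h5 : sc p (ζ ^ j) = 1 := mul_eq_right.1 h4.symm
    rw [← hord]
    exact orderOf_dvd_of_pow_eq_one (hinj _ h5)

variable {ι : K₀ →* Y} {σ : Y →* Y} {E B : Subgroup Y} {M₀ : Subgroup K₀}

/-- **Generation for a subgroup `ψ (SL_p(k))` on which `E` acts as a non-commuting pair.** -/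
theorem orb_hom_of (h2 : p ≠ 2) (L : LinFacts.{u} p) (U : UniFacts.{u} p) (h7 : 7 ≤ p ∨ r ≠ 2) (hpr : p ≠ r) (he : 0 < e)
    (hex : ∀ u, σ u = u → (∃ m, u ^ r ^ m = 1) → ∃ a, ι a = u)
    (hEp : ∀ a ∈ E, a ^ p = 1) (hEc : ∀ a ∈ E, ∀ b ∈ E, a * b = b * a) (hEσ : ∀ a ∈ E, σ a = a)
    (hM : ∀ F ≤ E, F.relIndex E = p → ∀ a : K₀, (∀ x ∈ F, ι a * x = x * ι a) → a ∈ M₀)
    (hB : B ≤ E) (hBi : B.relIndex E = p ^ 2)
    {ψ : Matrix.SpecialLinearGroup (Fin p) k →* Y} (hψ : ∃ g, ψ g ≠ 1) (hBψ : ∀ x ∈ B, ∀ g, ψ g * x = x * ψ g)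
    {D : GL (Fin p) k} {uni : Bool}
    (hσ : ∀ g, σ (ψ g) = ψ (stm r e D uni g)) {ya yb : Y} (hya : ya ∈ E) (hyb : yb ∈ E)
    {a b : GL (Fin p) k} (ha : ∀ g, ya * ψ g * ya⁻¹ = ψ (cj a g)) (hb : ∀ g, yb * ψ g * yb⁻¹ = ψ (cj b g))
    (hab : a * b ≠ b * a)
    {g : Matrix.SpecialLinearGroup (Fin p) k} (hg : σ (ψ g) = ψ g) {m : ℕ} (hm : ψ g ^ r ^ m = 1) :
    ψ g ∈ M₀.map ι := by
  have hn : 3 ≤ p := by have := hp.1.two_le; omega
  have h32 : ¬ (p = 3 ∧ r ^ e = 2) := by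
    rintro ⟨h3, hre⟩
    rcases h7 with h7 | h7
    · omega
    · apply h7
      have h4 : r ∣ 2 := hre ▸ dvd_pow_self r he.ne'
      exact (Nat.prime_dvd_prime_iff_eq Fact.out Nat.prime_two).1 h4
  -- the preimage
  have hpre : ∀ x, stm r e D uni x = x → ∃ a, ι a = ψ x := by
    intro x hx
    have h1 := fix_gen hn he h32 hx
    have h3 : Subgroup.closure {h : Matrix.SpecialLinearGroup (Fin p) k | stm r e D uni h = h ∧ h ^ r = 1} ≤
        ι.range.comap ψ := by
      rw [Subgroup.closure_le]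
      rintro y ⟨hy, hyr⟩
      exact hex _ (by rw [hσ, hy]) ⟨1, by rw [pow_one, ← map_pow, hyr, map_one]⟩
    exact h3 h1
  -- scalars
  have hpow : ∀ {y : Y} {x : GL (Fin p) k}, (∀ g, y * ψ g * y⁻¹ = ψ (cj x g)) → ∀ (i : ℕ) g,
      y ^ i * ψ g * (y ^ i)⁻¹ = ψ (cj (x ^ i) g) := by
    intro y x hx i
    induction i with
    | zero => intro g; rw [pow_zero, pow_zero, map_one, MulAut.one_apply]; group
    | succ i ih =>
      intro g
      rw [pow_succ' x, map_mul, MulAut.mul_apply, ← hx, ← ih, pow_succ']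
      group
  have hsc : ∀ {x : GL (Fin p) k}, (∀ g, ψ (cj x g) = ψ g) → x ∈ scalars (Fin p) k := by
    intro x hx
    refine scalar_of_cj fun g => ?_
    exact eq_of_psi hn hψ (f := (cj x).toMonoidHom) (g := MonoidHom.id _) hx g
  have hcom := hEc ya hya yb hyb
  have hc : a * b * (b * a)⁻¹ ∈ scalars (Fin p) k := by
    refine hsc fun g => ?_
    have h3 : ∀ {y : Y} {x : GL (Fin p) k}, (∀ g, y * ψ g * y⁻¹ = ψ (cj x g)) → ∀ g, y⁻¹ * ψ g * y = ψ (cj x⁻¹ g) := by
      intro y x hx g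
      have h4 := hx (cj x⁻¹ g)
      rw [← MulAut.mul_apply, ← map_mul, mul_inv_cancel, map_one, MulAut.one_apply] at h4
      rw [← h4]
      group
    rw [mul_inv_rev, map_mul, map_mul, map_mul, MulAut.mul_apply, MulAut.mul_apply, MulAut.mul_apply, ← ha, ← hb, ← h3 ha,
      ← h3 hb]
    calc ya * (yb * (ya⁻¹ * (yb⁻¹ * ψ g * yb) * ya) * yb⁻¹) * ya⁻¹ =
          (ya * yb) * (yb * ya)⁻¹ * ψ g * ((ya * yb) * (yb * ya)⁻¹)⁻¹ := by group
      _ = ψ g := by rw [hcom]; group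
  obtain ⟨ζ, hζ⟩ := mem_scalars_iff_sc.1 hc
  have hab' : a * b = sc p ζ * (b * a) := by rw [← hζ, inv_mul_cancel_right]
  have hζ1 : ζ ≠ 1 := by
    rintro rfl
    exact hab (by rw [hab', sc_one, one_mul])
  have hap : a ^ p ∈ scalars (Fin p) k := hsc fun g => by
    rw [← hpow ha, hEp ya hya]; group
  have hζp : ζ ^ p = 1 := by
    obtain ⟨z, hz⟩ := mem_scalars_iff_sc.1 hap
    have h3 : ∀ m : ℕ, a ^ m * b = sc p (ζ ^ m) * (b * a ^ m) := by
      intro m
      induction m with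
      | zero => simp [sc_one]
      | succ m ih =>
        calc a ^ (m + 1) * b = a * (a ^ m * b) := by rw [pow_succ']; group
          _ = (a * sc p (ζ ^ m)) * (b * a ^ m) := by rw [ih]; group
          _ = sc p (ζ ^ m) * ((a * b) * a ^ m) := by rw [← sc_comm]; group
          _ = sc p (ζ ^ m) * sc p ζ * (b * a ^ (m + 1)) := by rw [hab', pow_succ']; group
          _ = _ := by rw [← sc_mul, ← pow_succ]
    have h4 := h3 p
    rw [hz, sc_comm z b] at h4
    have h5 : sc p (ζ ^ p) = 1 := mul_eq_right.1 h4.symm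
    have h6 : (sc p (ζ ^ p) : Matrix (Fin p) (Fin p) k) 0 0 = ((1 : GL (Fin p) k) : Matrix (Fin p) (Fin p) k) 0 0 := by
      rw [h5]
    rw [sc_coe, Units.val_one, Matrix.smul_apply, Matrix.one_apply_eq, smul_eq_mul, mul_one] at h6
    exact Units.ext h6
  -- reduce to the fixed points of `stm`
  have hN : ∃ x, stm r e D uni x = x ∧ ψ x = ψ g := by
    have hcop : Nat.Coprime (r ^ m) p :=
      Nat.Coprime.pow_left _ ((Nat.coprime_primes Fact.out hp.1).2 (Ne.symm hpr))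
    obtain ⟨N, hN1, hN2⟩ := Nat.chineseRemainder hcop 1 0
    have hN3 : p ∣ N := (Nat.modEq_zero_iff_dvd).1 hN2
    refine ⟨g ^ N, ?_, ?_⟩
    · obtain ⟨z, hz⟩ : ∃ z, stm r e D uni g = g * z := ⟨g⁻¹ * stm r e D uni g, by group⟩
      have hzc : z ∈ Subgroup.center (Matrix.SpecialLinearGroup (Fin p) k) := by
        refine ker_le_center hn hψ ?_
        have h4 : ψ (stm r e D uni g) = ψ g := by rw [← hσ, hg]
        rw [hz, map_mul] at h4
        exact mul_eq_left.1 h4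
      obtain ⟨N', rfl⟩ := hN3
      have hgz : Commute g z := (Subgroup.mem_center_iff.1 hzc g)
      rw [map_pow, hz, hgz.mul_pow, pow_mul z, center_pow hzc, one_pow, mul_one]
    · rw [map_pow]
      have h3 : ψ g ^ N = ψ g ^ 1 := by
        rw [pow_eq_pow_iff_modEq]
        exact hN1.of_dvd (orderOf_dvd_of_pow_eq_one hm)
      rw [h3, pow_one]
  obtain ⟨x, hx, hxg⟩ := hN
  rw [← hxg]
  refine gen_hom_of h2 L U h7 he hψ hσ (hEσ ya hya) (hEσ yb hyb) hcom (fun g => by rw [hEp ya hya]; group)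
    (fun g => by rw [hEp yb hyb]; group) ha hb hab (M := M₀.map ι) ?_ hx
  intro i j hij y hy hcomm
  have hf : ya ^ i * yb ^ j ∈ E := mul_mem (pow_mem hya i) (pow_mem hyb j)
  have hfB : ya ^ i * yb ^ j ∉ B := by
    intro hfB
    apply hij
    refine dvd_of_scalar hζ1 hζp hab' (hsc fun g => ?_)
    rw [map_mul, MulAut.mul_apply, ← hpow ha, ← hpow hb]
    have h3 := hBψ _ hfB g
    calc ya ^ i * (yb ^ j * ψ g * (yb ^ j)⁻¹) * (ya ^ i)⁻¹ = (ya ^ i * yb ^ j) * ψ g * (ya ^ i * yb ^ j)⁻¹ := by group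
      _ = ψ g := by rw [← h3]; group
  obtain ⟨F, hFE, hFi, -, -, hFm⟩ := exists_plane hEp hEc hB hBi hf hfB
  obtain ⟨a', ha'⟩ := hpre y hy
  refine ⟨a', hM F hFE hFi a' fun x hx => ?_, ha'⟩
  rw [ha']
  obtain ⟨b', hb', m', rfl⟩ := hFm x hx
  have h3 : Commute (ψ y) b' := hBψ b' hb' y
  have h4 : Commute (ψ y) (ya ^ i * yb ^ j) := hcomm.symm
  exact (h3.mul_right (h4.zpow_right m')).eq

/-- **Orbits of `p` roots spanning a system of type `A_{p-1}`.** -/
theorem orb_cyclic_of (h2 : p ≠ 2) (L : LinFacts.{u} p) (U : UniFacts.{u} p) (h7 : 7 ≤ p ∨ r ≠ 2) (he : 0 < e)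
    (hex : ∀ u, σ u = u → (∃ m, u ^ r ^ m = 1) → ∃ a, ι a = u)
    (hEp : ∀ a ∈ E, a ^ p = 1) (hEc : ∀ a ∈ E, ∀ b ∈ E, a * b = b * a) (hEσ : ∀ a ∈ E, σ a = a)
    (hM : ∀ F ≤ E, F.relIndex E = p → ∀ a : K₀, (∀ x ∈ F, ι a * x = x * ι a) → a ∈ M₀)
    (hB : B ≤ E) (hBi : B.relIndex E = p ^ 2)
    {ψ : Matrix.SpecialLinearGroup (Fin p) k →* Y} (hBψ : ∀ x ∈ B, ∀ g, ψ g * x = x * ψ g)
    (hinj : ∀ (i j : Fin p) (hij : i ≠ j), Function.Injective fun t : k => ψ (transvection hij t))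
    {π : Equiv.Perm (Fin p)} {s : Fin p → Fin p → k} (hs0 : ∀ i j, i ≠ j → s i j ≠ 0)
    (hσ : (∀ (i j : Fin p) (hij : i ≠ j) (t : k),
        σ (ψ (transvection hij t)) = ψ (transvection (π.injective.ne hij) (s i j * t ^ r ^ e))) ∨
      (∀ (i j : Fin p) (hij : i ≠ j) (t : k),
        σ (ψ (transvection hij t)) = ψ (transvection (π.injective.ne hij.symm) (s i j * t ^ r ^ e))))
    {y b : Y} (hy : y ∈ E) (hb : b ∈ E)
    {w c : Fin p → Fin p → k} (hw0 : ∀ i j, i ≠ j → w i j ≠ 0) (hc0 : ∀ i j, i ≠ j → c i j ≠ 0)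
    (hyψ : ∀ (i j : Fin p) (hij : i ≠ j) (t : k),
      y * ψ (transvection hij t) * y⁻¹ = ψ (transvection hij (w i j * t)))
    (hbψ : ∀ (i j : Fin p) (hij : i ≠ j) (t : k),
      b * ψ (transvection hij t) * b⁻¹ = ψ (transvection (add_left_injective (1 : Fin p) |>.ne hij) (c i j * t)))
    (hw : ∃ i j, i ≠ j ∧ w i j ≠ 1)
    {g : Matrix.SpecialLinearGroup (Fin p) k} (hg : σ (ψ g) = ψ g) {m : ℕ} (hm : ψ g ^ r ^ m = 1) :
    ψ g ∈ M₀.map ι := by
  have hn : 3 ≤ p := by have := hp.1.two_le; omega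
  have h01 : (0 : Fin p) ≠ 1 := by
    intro h
    have := congrArg Fin.val h
    rw [Fin.val_zero, Fin.val_one'] at this
    rw [Nat.mod_eq_of_lt (by omega)] at this
    omega
  have hψ : ∃ g, ψ g ≠ 1 := by
    refine ⟨transvection h01 1, fun h => ?_⟩
    have h3 : ψ (transvection h01 (1 : k)) = ψ (transvection h01 (0 : k)) := by
      have h4 : transvection h01 (0 : k) = 1 := toGL_inj' (Units.ext (by rw [toGL_transvection]; simp))
      rw [h, h4, map_one]
    exact one_ne_zero (hinj 0 1 h01 h3)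
  -- `σ`
  obtain ⟨D, uni, hD⟩ : ∃ (D : GL (Fin p) k) (uni : Bool), ∀ g, σ (ψ g) = ψ (stm r e D uni g) := by
    rcases hσ with h | h
    · obtain ⟨d, -, hd⟩ := exists_lin hn hinj hs0 h
      exact ⟨_, _, hd⟩
    · obtain ⟨d, -, hd⟩ := exists_uni hn hinj hs0 h
      exact ⟨_, _, hd⟩
  have hst : ∀ (x : GL (Fin p) k) g, stm r 0 x false g = cj x g := by
    intro x g
    apply toGL_inj'
    rw [toGL_stm, stG_false, toGL_cj]
    have : fr r 0 (toGL g) = toGL g := by
      apply Units.ext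
      ext i j
      rw [fr_apply, pow_zero, pow_one]
    rw [this]
  obtain ⟨dy, hdy, hyd⟩ := exists_lin (r := r) (e := 0) (φ := (MulAut.conj y).toMonoidHom) (π := Equiv.refl _) (c := w) hn hinj
    hw0 (fun i j hij t => by
      show y * ψ (transvection hij t) * y⁻¹ = _
      rw [hyψ, pow_zero, pow_one]
      rfl)
  obtain ⟨db, hdb, hbd⟩ := exists_lin (r := r) (e := 0) (φ := (MulAut.conj b).toMonoidHom)
    (π := Equiv.addRight (1 : Fin p)) (c := c) hn hinj hc0 (fun i j hij t => by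
      show b * ψ (transvection hij t) * b⁻¹ = _
      rw [hbψ, pow_zero, pow_one]
      rfl)
  have hne : mono (Equiv.refl (Fin p)) dy * mono (Equiv.addRight (1 : Fin p)) db ≠
      mono (Equiv.addRight (1 : Fin p)) db * mono (Equiv.refl (Fin p)) dy := by
    intro h
    obtain ⟨i, j, hij, hwij⟩ := hw
    apply hwij
    rw [hdy i j hij, diag_comm_cycle h i, diag_comm_cycle h j, Units.mul_inv]
  -- `p ≠ r`
  have hpr : p ≠ r := by
    rintro rfl
    obtain ⟨i, j, hij, hwij⟩ := hw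
    apply hwij
    have h3 : ∀ m : ℕ, y ^ m * ψ (transvection hij 1) * (y ^ m)⁻¹ = ψ (transvection hij (w i j ^ m)) := by
      intro m
      induction m with
      | zero => simp
      | succ m ih =>
        calc y ^ (m + 1) * ψ (transvection hij 1) * (y ^ (m + 1))⁻¹ =
              y * (y ^ m * ψ (transvection hij 1) * (y ^ m)⁻¹) * y⁻¹ := by rw [pow_succ']; group
          _ = _ := by rw [ih, hyψ, ← pow_succ']
    have h4 := h3 p
    rw [hEp y hy, one_mul, inv_one, mul_one] at h4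
    have h5 : (1 : k) = w i j ^ p := hinj i j hij h4
    have h6 : (w i j - 1) ^ p = 0 := by rw [sub_pow_char, one_pow, ← h5, sub_self]
    exact sub_eq_zero.1 (pow_eq_zero_iff hp.1.ne_zero |>.1 h6)
  exact orb_hom_of h2 L U h7 hpr he hex hEp hEc hEσ hM hB hBi hψ hBψ hD hy hb (fun g => by rw [← hst]; exact hyd g)
    (fun g => by rw [← hst]; exact hbd g) hne hg hm

end Orb

end Cfsg.Agent.H321.Ker
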